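import Mathlib
import Cfsg.Agent.Max.Basic

/-!
# Two conjugates of a subspace with maximal intersection

If the `M`-orbit of a subspace `L` has two distinct members that meet non-trivially, choose such
a pair `L, X` with intersection of maximal dimension. An element of `M` carrying more than the
intersection into `X` then stabilises `X`.
-/

set_option autoImplicit false

namespace Cfsg.Agent.Max2

open Module

variable {F V : Type*} [Field F] [AddCommGroup V] [Module F V]

/-- The image of a subspace. -/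
abbrev im (L : Submodule F V) (g : V ≃ₗ[F] V) : Submodule F V := L.map (g : V →ₗ[F] V)

theorem mem_im {L : Submodule F V} {g : V ≃ₗ[F] V} {v : V} : v ∈ im L g ↔ g.symm v ∈ L := by
  constructor
  · rintro ⟨w, hw, rfl⟩; simpa using hw
  · intro h; exact ⟨g.symm v, h, by simp⟩

theorem apply_mem_im {L : Submodule F V} {g : V ≃ₗ[F] V} {v : V} : g v ∈ im L g ↔ v ∈ L := by
  simp

theorem im_mul (L : Submodule F V) (g h : V ≃ₗ[F] V) : im L (g * h) = im (im L h) g := by
  ext v; simp only [mem_im]; rfl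

theorem im_one (L : Submodule F V) : im L 1 = L := by
  ext v; simp only [mem_im]; rfl

theorem finrank_im (L : Submodule F V) (g : V ≃ₗ[F] V) : finrank F (im L g) = finrank F L :=
  LinearEquiv.finrank_map_eq g L

theorem im_inf (L X : Submodule F V) (g : V ≃ₗ[F] V) : im (L ⊓ X) g = im L g ⊓ im X g := by
  ext v; simp

theorem im_inj {L X : Submodule F V} {g : V ≃ₗ[F] V} (h : im L g = im X g) : L = X := by
  ext v; rw [← apply_mem_im (g := g), h, apply_mem_im]

/-- `L` and `X = m L` are distinct, meet non-trivially, and with maximal dimension. -/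
structure Pair (M : Subgroup (V ≃ₗ[F] V)) (L : Submodule F V) (m : V ≃ₗ[F] V) : Prop where
  mem : m ∈ M
  ne : im L m ≠ L
  int : L ⊓ im L m ≠ ⊥
  max : ∀ g ∈ M, im L g ≠ L → finrank F ↥(L ⊓ im L g) ≤ finrank F ↥(L ⊓ im L m)

variable {M : Subgroup (V ≃ₗ[F] V)} {L : Submodule F V} {m : V ≃ₗ[F] V}

theorem exists_pair [FiniteDimensional F V] {g : V ≃ₗ[F] V} (hg : g ∈ M) (h1 : im L g ≠ L)
    (h2 : L ⊓ im L g ≠ ⊥) : ∃ m, Pair M L m := by
  classical
  let P : ℕ → Prop := fun k => ∃ g ∈ M, im L g ≠ L ∧ finrank F ↥(L ⊓ im L g) = k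
  have hb : ∀ k, P k → k ≤ finrank F V := by
    rintro k ⟨g, -, -, rfl⟩; exact Submodule.finrank_le _
  obtain ⟨m, hm, h3, h4⟩ : P (Nat.findGreatest P (finrank F V)) :=
    Nat.findGreatest_spec (hb _ ⟨g, hg, h1, rfl⟩) ⟨g, hg, h1, rfl⟩
  have hmax : ∀ g ∈ M, im L g ≠ L → finrank F ↥(L ⊓ im L g) ≤ finrank F ↥(L ⊓ im L m) := by
    intro g hg h
    rw [h4]
    exact Nat.le_findGreatest (hb _ ⟨g, hg, h, rfl⟩) ⟨g, hg, h, rfl⟩
  refine ⟨m, hm, h3, fun h => h2 ?_, hmax⟩
  have := hmax g hg h1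
  rw [h, finrank_bot] at this
  exact Submodule.finrank_eq_zero.1 (Nat.le_zero.1 this)

namespace Pair

theorem symm (h : Pair M L m) : Pair M L m⁻¹ := by
  have e : im (L ⊓ im L m⁻¹) m = L ⊓ im L m := by
    rw [im_inf, ← im_mul, mul_inv_cancel, im_one, inf_comm]
  refine ⟨M.inv_mem h.mem, fun e' => h.ne ?_, fun e' => h.int ?_, fun g hg hne => ?_⟩
  · conv_lhs => rw [← e']
    rw [← im_mul, mul_inv_cancel, im_one]
  · rw [← e, e']; simp
  · rw [← finrank_im (L ⊓ im L m⁻¹) m, e]; exact h.max g hg hne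

variable [FiniteDimensional F V]

theorem exists_X (h : Pair M L m) : ∃ x ∈ im L m, x ∉ L := by
  by_contra hn
  push Not at hn
  exact h.ne (Submodule.eq_of_le_of_finrank_eq hn (finrank_im L m))

theorem exists_L (h : Pair M L m) : ∃ y ∈ L, y ∉ im L m := by
  by_contra hn
  push Not at hn
  exact h.ne (Submodule.eq_of_le_of_finrank_eq hn (finrank_im L m).symm).symm

omit [FiniteDimensional F V] in
theorem exists_S (h : Pair M L m) : ∃ s, s ≠ 0 ∧ s ∈ L ∧ s ∈ im L m := by
  obtain ⟨s, hs, h0⟩ := Submodule.exists_mem_ne_zero_of_ne_bot h.int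
  exact ⟨s, h0, hs.1, hs.2⟩

theorem stabL (h : Pair M L m) {t : V ≃ₗ[F] V} (ht : t ∈ M)
    (hS : ∀ s ∈ L, s ∈ im L m → t s ∈ L) {y : V} (hy : y ∈ L) (hyX : y ∉ im L m)
    (hty : t y ∈ L) : ∀ z ∈ L, t z ∈ L := by
  have key : im L t⁻¹ = L := by
    by_contra hne
    have h1 := h.max _ (M.inv_mem ht) hne
    have h2 : L ⊓ im L m < L ⊓ im L t⁻¹ := by
      refine lt_of_le_of_ne (fun s hs => ⟨hs.1, mem_im.2 (hS s hs.1 hs.2)⟩) fun e => hyX ?_
      have : y ∈ L ⊓ im L t⁻¹ := ⟨hy, mem_im.2 hty⟩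
      rw [← e] at this
      exact this.2
    exact absurd (Submodule.finrank_lt_finrank_of_lt h2) (not_lt.2 h1)
  intro z hz
  rw [← key] at hz
  exact mem_im.1 hz

theorem stabX (h : Pair M L m) {t : V ≃ₗ[F] V} (ht : t ∈ M)
    (hS : ∀ s ∈ L, s ∈ im L m → t s ∈ im L m) {x : V} (hx : x ∈ im L m) (hxL : x ∉ L)
    (htx : t x ∈ im L m) : ∀ z ∈ im L m, t z ∈ im L m := by
  intro z hz
  have := h.symm.stabL (t := m⁻¹ * t * m) (M.mul_mem (M.mul_mem (M.inv_mem h.mem) ht) h.mem)
    (fun s hs hs' => mem_im.1 (hS (m s) (mem_im.1 hs') (apply_mem_im.2 hs)))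
    (y := m.symm x) (mem_im.1 hx) (fun e => hxL (by
      have e' : m (m.symm x) ∈ L := mem_im.1 e
      simpa using e'))
    (by have := mem_im.1 htx; simpa using this) (m.symm z) (mem_im.1 hz)
  exact mem_im.2 (by simpa using this)

end Pair

end Cfsg.Agent.Max2
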