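import Mathlib
import Cfsg.Agent.Max2.Pair
import Cfsg.Agent.Asch.Alg

/-!
# A vector space over an extension field `K / F`, viewed over `F`
-/

set_option autoImplicit false

namespace Cfsg.Agent.Max2

open Module Cfsg.Agent.Max

variable {F K V : Type*} [Field F] [Field K] [Algebra F K] [AddCommGroup V] [Module F V]
  [Module K V] [IsScalarTower F K V]

/-- `g` is semilinear over `K`. -/
def Semi (K : Type*) [Field K] [Module K V] (g : V ≃ₗ[F] V) : Prop :=
  ∀ k : K, ∃ k' : K, ∀ v, g (k • v) = k' • g v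

/-- The `K`-line through `u`, as an `F`-subspace. -/
def line (F K : Type*) [Field F] [Field K] [Algebra F K] [Module F V] [Module K V]
    [IsScalarTower F K V] (u : V) : Submodule F V := (K ∙ u).restrictScalars F

theorem mem_line {u v : V} : v ∈ line F K u ↔ ∃ k : K, k • u = v := by
  simp [line, Submodule.mem_span_singleton]

theorem smul_mem_line (k : K) (u : V) : k • u ∈ line F K u := mem_line.2 ⟨k, rfl⟩

theorem self_mem_line (u : V) : u ∈ line F K u := mem_line.2 ⟨1, one_smul _ _⟩

theorem line_smul {u v : V} (h : v ∈ line F K u) (k : K) : k • v ∈ line F K u := by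
  obtain ⟨c, rfl⟩ := mem_line.1 h
  rw [smul_smul]; exact smul_mem_line _ _

theorem exists_smul_of_line {u s v : V} (hs : s ∈ line F K u) (h0 : s ≠ 0)
    (hv : v ∈ line F K u) : ∃ k : K, k • s = v := by
  obtain ⟨c, rfl⟩ := mem_line.1 hs
  obtain ⟨d, rfl⟩ := mem_line.1 hv
  have hc : c ≠ 0 := by rintro rfl; simp at h0
  exact ⟨d / c, by rw [smul_smul, div_mul_cancel₀ _ hc]⟩

theorem finrank_line {u : V} (hu : u ≠ 0) : finrank F (line F K u) = finrank F K := by
  let e : K ≃ₗ[F] line F K u := LinearEquiv.ofBijective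
    (((LinearMap.toSpanSingleton K V u).restrictScalars F).codRestrict _
      fun k => smul_mem_line k u)
    ⟨fun a b h => by
      have : a • u = b • u := congrArg Subtype.val h
      exact smul_left_injective K hu this, fun v => by
      obtain ⟨k, hk⟩ := mem_line.1 v.2
      exact ⟨k, Subtype.ext hk⟩⟩
  exact e.finrank_eq.symm

theorem dual_line {u v : V} {ψ : Dual K V} (h : ψ u = 0) (hv : v ∈ line F K u) : ψ v = 0 := by
  obtain ⟨c, rfl⟩ := mem_line.1 hv
  simp [h]

theorem not_mem_span_of_line {u v : V} (h : v ∉ line F K u) : v ∉ K ∙ u := h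

omit [Algebra F K] [IsScalarTower F K V] in
theorem semi_of_lines (hn : 2 ≤ finrank K V) {g : V ≃ₗ[F] V}
    (h : ∀ v (k : K), ∃ k' : K, g (k • v) = k' • g v) : Semi K g := by
  intro k
  choose c hc using fun v => h v k
  have key : ∀ v w, g w ∉ K ∙ g v → v ≠ 0 → c v = c w := by
    intro v w hw hv
    have e := hc (v + w)
    rw [smul_add, map_add, map_add, hc, hc, smul_add] at e
    have e2 : (c w - c (v + w)) • g w = (c (v + w) - c v) • g v := by
      rw [sub_smul, sub_smul, sub_eq_sub_iff_add_eq_add, add_comm (c w • g w), e]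
    have e3 : c w - c (v + w) = 0 := by
      by_contra h0
      apply hw
      rw [Submodule.mem_span_singleton]
      exact ⟨(c w - c (v + w))⁻¹ * (c (v + w) - c v), by
        rw [mul_smul, ← e2, smul_smul, inv_mul_cancel₀ h0, one_smul]⟩
    rw [e3, zero_smul, eq_comm, smul_eq_zero] at e2
    rcases e2 with e2 | e2
    · rw [sub_eq_zero] at e2 e3; rw [← e2, e3]
    · exact absurd (by simpa using e2) hv
  have : Nontrivial V := Module.nontrivial_of_finrank_pos (R := K) (by omega)
  obtain ⟨v₀, hv₀⟩ := exists_ne (0 : V)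
  refine ⟨c v₀, fun v => ?_⟩
  by_cases hv : v = 0
  · simp [hv]
  rw [hc]
  congr 1
  by_cases h1 : g v ∈ K ∙ g v₀
  · obtain ⟨z, -, hz⟩ := exists_not_mem_of_finrank_lt (W := K ∙ g v₀) (U := ⊤)
      (lt_of_le_of_lt (finrank_span_one_le _) (by rw [finrank_top]; omega))
    obtain ⟨z, rfl⟩ := g.surjective z
    rw [key v₀ z hz hv₀, key v z (fun h2 => hz ?_) hv]
    exact (Submodule.span_singleton_le_iff_mem _ _).2 h1 h2
  · exact (key v₀ v h1 hv₀).symm

theorem Semi.mem_line {g : V ≃ₗ[F] V} (h : Semi K g) {u v : V} (hv : v ∈ line F K u) :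
    g v ∈ line F K (g u) := by
  obtain ⟨c, rfl⟩ := Max2.mem_line.1 hv
  obtain ⟨k', hk⟩ := h c
  rw [hk]; exact smul_mem_line _ _

theorem semi_restrict (g : V ≃ₗ[K] V) : Semi K (g.restrictScalars F) :=
  fun k => ⟨k, fun v => g.map_smul k v⟩

theorem det_restrict [FiniteDimensional F K] (g : V ≃ₗ[K] V)
    (h : Algebra.norm F (LinearMap.det (g : V →ₗ[K] V)) = 1) :
    LinearEquiv.det (g.restrictScalars F) = 1 := by
  apply Units.ext
  rw [LinearEquiv.coe_det, Units.val_one, ← h, ← LinearMap.det_restrictScalars]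
  rfl

/-- A scalar stabilising a proper non-zero part of a line lies in the ground field. -/
theorem mem_range_of_stab (hr : (finrank F K).Prime) {u : V} {S : Submodule F V}
    (hS : S ≤ line F K u) {s y : V} (hs : s ∈ S) (h0 : s ≠ 0) (hy : y ∈ line F K u) (hyS : y ∉ S)
    {k : K} (hk : ∀ s ∈ S, k • s ∈ S) : ∃ c : F, algebraMap F K c = k := by
  let E : Subalgebra F K :=
    { carrier := {k | ∀ s ∈ S, k • s ∈ S}
      mul_mem' := fun {a b} ha hb s hs => by rw [mul_smul]; exact ha _ (hb s hs)
      add_mem' := fun {a b} ha hb s hs => by rw [add_smul]; exact S.add_mem (ha s hs) (hb s hs)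
      algebraMap_mem' := fun c s hs => by rw [algebraMap_smul]; exact S.smul_mem c hs }
  rcases (Subalgebra.isSimpleOrder_of_finrank_prime F K hr).eq_bot_or_eq_top E with h | h
  · have : k ∈ E := hk
    rw [h] at this
    exact Algebra.mem_bot.1 this
  · obtain ⟨c, rfl⟩ := exists_smul_of_line (hS hs) h0 hy
    have : c ∈ E := by rw [h]; trivial
    exact absurd (this s hs) hyS

theorem exists_not_mem_range (hr : 2 ≤ finrank F K) : ∃ k : K, ∀ c : F, algebraMap F K c ≠ k := by
  by_contra hn
  push Not at hn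
  have : (⊥ : Subalgebra F K) = ⊤ := eq_top_iff.2 fun k _ => Algebra.mem_bot.2 (hn k)
  rw [Subalgebra.bot_eq_top_iff_finrank_eq_one] at this
  omega

/-- The elements of norm one generate `K` as a ring. -/
theorem forall_of_norm_one [Finite F] [FiniteDimensional F K] (hr : 2 ≤ finrank F K)
    (E : Subring K) (h : ∀ k : K, Algebra.norm F k = 1 → k ∈ E) (k : K) : k ∈ E := by
  classical
  have : Finite K := Module.finite_of_finite F
  let E' : Subfield K :=
    { E with
      inv_mem' := fun x hx => by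
        by_cases h0 : x = 0
        · simp [h0]
        · have hx' : x ∈ E := hx
          obtain ⟨n, hn, e⟩ := (isOfFinOrder_of_finite (Units.mk0 x h0)).exists_pow_eq_one
          have e2 : x ^ n = 1 := by simpa using congrArg Units.val e
          have : x⁻¹ = x ^ (n - 1) := by
            apply inv_eq_of_mul_eq_one_right
            rw [← pow_succ', Nat.sub_add_cancel hn, e2]
          change x⁻¹ ∈ E
          rw [this]; exact E.pow_mem hx' _ }
  by_contra hk
  have h2 : 2 ≤ finrank E' K := by
    by_contra hlt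
    have h1 : finrank E' K = 1 := by have := finrank_pos (R := E') (M := K); omega
    have := (Subalgebra.bot_eq_top_iff_finrank_eq_one.2 h1).ge (show k ∈ ⊤ from trivial)
    obtain ⟨c, hc⟩ := Algebra.mem_bot.1 this
    exact hk (hc ▸ c.2)
  set q := Nat.card F with hq
  set r := finrank F K
  have hq2 : 2 ≤ q := Finite.one_lt_card
  have c1 : Nat.card K = q ^ r := Module.natCard_eq_pow_finrank
  have c2 : Nat.card K = Nat.card E' ^ finrank E' K := Module.natCard_eq_pow_finrank
  let ν : Kˣ →* Fˣ := Units.map (Algebra.norm F : K →* F)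
  have c3 : Nat.card ν.ker * ν.ker.index = Nat.card Kˣ := ν.ker.card_mul_index
  have c4 : ν.ker.index ≤ q - 1 := by
    rw [Subgroup.index_ker, hq, ← Nat.card_units]
    exact Nat.card_le_card_of_injective _ Subtype.val_injective
  have c5 : Nat.card ν.ker ≤ Nat.card E' - 1 := by
    rw [← Nat.card_units]
    refine Nat.card_le_card_of_injective (fun x => Units.mk0 (⟨x.1.1, h _ ?_⟩ : E') ?_) ?_
    · simpa [ν] using congrArg Units.val (MonoidHom.mem_ker.1 x.2)
    · intro e; exact x.1.ne_zero (congrArg Subtype.val e)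
    · intro a b e
      have := congrArg (fun z : E'ˣ => ((z : E') : K)) e
      exact Subtype.ext (Units.ext this)
  rw [Nat.card_units, c1] at c3
  set e := Nat.card E'
  have e1 : 1 ≤ e := Nat.card_pos
  have c6 : e ^ 2 ≤ q ^ r := by rw [← c1, c2]; exact Nat.pow_le_pow_right e1 h2
  have c7 : q ^ r - 1 ≤ (e - 1) * (q - 1) := c3 ▸ Nat.mul_le_mul c5 c4
  have c8 : q ^ 2 ≤ q ^ r := Nat.pow_le_pow_right (by omega) hr
  obtain ⟨a, ha⟩ : ∃ a, e = a + 1 := ⟨e - 1, by omega⟩
  obtain ⟨b, hb⟩ : ∃ b, q = b + 1 := ⟨q - 1, by omega⟩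
  rw [ha] at c6 c7
  have c9 : q ^ r ≤ a * b + 1 := by simp only [Nat.add_sub_cancel, hb] at c7 ⊢; omega
  rw [hb] at c8
  rw [← hb] at c8
  have hb1 : 1 ≤ b := by omega
  nlinarith [sq_nonneg ((a : ℤ) - b)]

/-- The `K`-linear map `x ↦ ψ x • w`. -/
abbrev kt (F : Type*) [Field F] [Algebra F K] [Module F V] [IsScalarTower F K V]
    (ψ : Dual K V) (w : V) : V →ₗ[F] V := (ψ.smulRight w).restrictScalars F

theorem kt_apply (ψ : Dual K V) (w x : V) : kt F ψ w x = ψ x • w := rfl

/-- Every `F`-functional is `τ ∘ φ` for a `K`-functional `φ`. -/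
theorem exists_dual_comp [FiniteDimensional F K] [FiniteDimensional K V] {τ : Dual F K}
    (hτ : τ ≠ 0) (f : Dual F V) : ∃ φ : Dual K V, ∀ v, f v = τ (φ v) := by
  have : FiniteDimensional F V := Module.Finite.trans K V
  have : FiniteDimensional F (Dual K V) := Module.Finite.trans K _
  let Φ : Dual K V →ₗ[F] Dual F V :=
    { toFun := fun φ => τ ∘ₗ φ.restrictScalars F
      map_add' := fun a b => by ext; simp
      map_smul' := fun c a => by ext; simp }
  have hinj : Function.Injective Φ := by
    rw [injective_iff_map_eq_zero]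
    intro φ hφ
    by_contra h0
    obtain ⟨x, hx⟩ := exists_apply_one h0
    apply hτ
    ext1 k
    have := congrArg (fun f : Dual F V => f (k • x)) hφ
    simpa [Φ, hx] using this
  have hd : finrank F (Dual K V) = finrank F (Dual F V) := by
    rw [← finrank_mul_finrank F K (Dual K V), Subspace.dual_finrank_eq, Subspace.dual_finrank_eq,
      finrank_mul_finrank]
  obtain ⟨φ, hφ⟩ := (LinearMap.injective_iff_surjective_of_finrank_eq_finrank hd).1 hinj f
  exact ⟨φ, fun v => by rw [← hφ]; rfl⟩

section Mat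

open Geo Asch Matrix

variable {ι : Type} [Fintype ι] [DecidableEq ι]

theorem mem_normalizer_iff {A : Subalgebra F (Matrix ι ι F)} (g : GL ι F) :
    g ∈ subalgebraNormalizer A ↔
      ∀ k : A, ∃ k' : A, ∀ v, Orth.glEquiv ι F g (k • v) = k' • Orth.glEquiv ι F g v := by
  constructor
  · intro h k
    exact ⟨⟨cj g k.1, (h k.1).1 k.2⟩, fun v => (cj_mulVec g k.1 v).symm⟩
  · intro h
    have h1 : ∀ k ∈ A, cj g k ∈ A := by
      intro k hk
      obtain ⟨k', hk'⟩ := h ⟨k, hk⟩
      have : cj g k = k'.1 := by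
        rw [cj_eq_iff]
        apply Matrix.toLin'.injective
        refine LinearMap.ext fun v => ?_
        have := hk' v
        simp only [Orth.glEquiv_apply, sub_smul_eq, mulVec_mulVec] at this
        exact this
      rw [this]; exact k'.2
    intro k
    refine ⟨h1 k, fun hk => ?_⟩
    let f : A →ₗ[F] A := ((cj g).toLinearMap ∘ₗ A.val.toLinearMap).codRestrict
      (Subalgebra.toSubmodule A) fun x => h1 x.1 x.2
    have hi : Function.Injective f := fun a b e =>
      Subtype.ext ((cj g).injective (congrArg Subtype.val e))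
    obtain ⟨y, hy⟩ := LinearMap.injective_iff_surjective.1 hi ⟨_, hk⟩
    have : cj g y.1 = cj g k := congrArg Subtype.val hy
    rw [← (cj g).injective this]; exact y.2

end Mat

end Cfsg.Agent.Max2
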