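import Mathlib
import Cfsg.Agent.Max2.Ext

/-!
# Overgroups of `ΓL_n(K) ∩ SL` in `SL_{nr}(F)`, `[K : F] = r` prime
-/

set_option autoImplicit false

namespace Cfsg.Agent.Max2

open Module Cfsg.Agent.Max

variable {F K V : Type*} [Field F] [Field K] [Algebra F K] [AddCommGroup V] [Module F V]
  [Module K V] [IsScalarTower F K V]

/-- `M` contains the `K`-transvections and the `K`-dilations of determinant one. -/
def KLe (K : Type*) [Field K] [Algebra F K] [Module K V] [IsScalarTower F K V]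
    (M : Subgroup (V ≃ₗ[F] V)) : Prop :=
  ∀ (ψ : Dual K V) (w : V), Algebra.norm F (1 + ψ w) = 1 → R M (kt F ψ w)

variable {M : Subgroup (V ≃ₗ[F] V)}

theorem KLe.tv (h : KLe K M) {ψ : Dual K V} {w : V} (e : ψ w = 0) : R M (kt F ψ w) :=
  h ψ w (by simp [e])

theorem kle_of [FiniteDimensional F K] [FiniteDimensional K V]
    (hH : ∀ g, LinearEquiv.det g = 1 → Semi K g → g ∈ M) : KLe K M := by
  intro ψ w h
  have hu : IsUnit (1 + ψ w) := by
    rw [isUnit_iff_ne_zero]; intro e; rw [e, Algebra.norm_zero] at h; exact zero_ne_one h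
  refine ⟨(LinearEquiv.dilatransvection hu).restrictScalars F, hH _ (det_restrict _ ?_)
    (semi_restrict _), fun x => LinearEquiv.dilatransvection.apply (h := hu)⟩
  rw [LinearEquiv.dilatransvection.coe_toLinearMap, LinearMap.transvection.det, h]

theorem exists_ker_ne_zero [FiniteDimensional K V] (hn : 2 ≤ finrank K V) (φ : Dual K V) :
    ∃ w, w ≠ 0 ∧ φ w = 0 := by
  have := finrank_le_inf_ker (⊤ : Submodule K V) φ
  rw [finrank_top] at this
  have h : (⊤ ⊓ LinearMap.ker φ : Submodule K V) ≠ ⊥ := fun e => by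
    rw [e, finrank_bot] at this; omega
  obtain ⟨w, hw, h0⟩ := Submodule.exists_mem_ne_zero_of_ne_bot h
  exact ⟨w, h0, hw.2⟩

theorem not_mem_span_symm {a s : V} (h : a ∉ K ∙ s) (hs : s ≠ 0) : s ∉ K ∙ a := by
  intro e
  obtain ⟨k, hk⟩ := Submodule.mem_span_singleton.1 e
  have : k ≠ 0 := by rintro rfl; simp [eq_comm, hs] at hk
  exact h (Submodule.mem_span_singleton.2 ⟨k⁻¹, by rw [← hk, smul_smul, inv_mul_cancel₀ this, one_smul]⟩)

/-- A `K`-transvection carrying `s` to `a`. -/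
theorem exists_move {a s : V} (h : a ∉ K ∙ s) (hs : s ≠ 0) :
    ∃ χ : Dual K V, χ (a - s) = 0 ∧ χ s = 1 := by
  apply exists_dual_two
  intro e
  obtain ⟨k, hk⟩ := Submodule.mem_span_singleton.1 e
  have : k ≠ 0 := by rintro rfl; simp [eq_comm, hs] at hk
  refine h (Submodule.mem_span_singleton.2 ⟨k⁻¹ + 1, ?_⟩)
  rw [add_smul, one_smul]
  nth_rewrite 1 [← hk]
  rw [smul_smul, inv_mul_cancel₀ this, one_smul, sub_add_cancel]

theorem exists_not_mem_span [FiniteDimensional K V] (hn : 2 ≤ finrank K V) (s : V) :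
    ∃ z, z ∉ K ∙ s := by
  obtain ⟨z, -, hz⟩ := exists_not_mem_of_finrank_lt (W := K ∙ s) (U := ⊤)
    (lt_of_le_of_lt (finrank_span_one_le _) (by rw [finrank_top]; omega))
  exact ⟨z, hz⟩

/-- An induction principle: a property invariant under `K`-transvections holds for all non-zero
vectors if it holds for one. -/
theorem move_ind [FiniteDimensional K V] (hn : 2 ≤ finrank K V) {P : V → Prop}
    (h : ∀ s (χ : Dual K V) w, χ w = 0 → P s → P (s + χ s • w)) {s : V} (hs : s ≠ 0) (hP : P s)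
    {a : V} (ha : a ≠ 0) : P a := by
  have key : ∀ s a, s ≠ 0 → a ∉ K ∙ s → P s → P a := by
    intro s a hs ha hP
    obtain ⟨χ, h1, h2⟩ := exists_move ha hs
    simpa [h2] using h s χ _ h1 hP
  by_cases h1 : a ∈ K ∙ s
  · obtain ⟨z, hz⟩ := exists_not_mem_span hn s
    have hz0 : z ≠ 0 := by rintro rfl; exact hz (Submodule.zero_mem _)
    refine key z a hz0 (not_mem_span_symm (fun e => hz ?_) ha) (key s z hs hz hP)
    exact (Submodule.span_singleton_le_iff_mem _ _).2 h1 e
  · exact key s a hs h1 hP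

variable [Finite F] [FiniteDimensional F K] [FiniteDimensional K V]

theorem sl_of_tv (hK : KLe K M) (hr : 2 ≤ finrank F K) (hn : 2 ≤ finrank K V) {s : V}
    {f : Dual F V} (h : T M s f) (hs : s ≠ 0) (hf : f ≠ 0) : SLle M := by
  have : FiniteDimensional F V := Module.Finite.trans K V
  obtain ⟨τ, hτ⟩ := exists_dual_one (F := F) (one_ne_zero (α := K))
  have hτ0 : τ ≠ 0 := by rintro rfl; simp at hτ
  let c : Dual K V → Dual F V := fun φ => τ ∘ₗ φ.restrictScalars F
  have hc : ∀ φ x, c φ x = τ (φ x) := fun _ _ => rfl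
  have hsurj : ∀ f, ∃ φ, f = c φ := fun f => by
    obtain ⟨φ, hφ⟩ := exists_dual_comp hτ0 f
    exact ⟨φ, LinearMap.ext hφ⟩
  obtain ⟨φ, rfl⟩ := hsurj f
  have hφ : φ ≠ 0 := by rintro rfl; exact hf (by ext; simp [hc])
  obtain ⟨s, hs, h0, h⟩ : ∃ s, s ≠ 0 ∧ φ s = 0 ∧ T M s (c φ) := by
    by_cases h0 : φ s = 0
    · exact ⟨s, hs, h0, h⟩
    obtain ⟨w, hw, hφw⟩ := exists_ker_ne_zero hn φ
    obtain ⟨ψ, h1, h2⟩ := exists_dual_two (F := K) (a := w) (x := s) fun e => by
      obtain ⟨k, rfl⟩ := Submodule.mem_span_singleton.1 e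
      simp [hφw] at h0
    refine ⟨w, hw, hφw, ?_⟩
    have := h.comm_left (hK.tv h1) (fun x => by simp [kt_apply, h1])
      (fun x => by simp [kt_apply, hc, hφw])
    simpa [kt_apply, h2] using this
  obtain ⟨w, hw⟩ := exists_apply_one hφ
  have hb : ∀ k : K, T M s (c (k • φ)) := by
    let E : Subring K :=
      { carrier := {k | ∀ d : K, T M s (c (d • φ)) → T M s (c ((k * d) • φ))}
        mul_mem' := fun {a b} ha hb d hd => by rw [mul_assoc]; exact ha _ (hb d hd)
        one_mem' := fun d hd => by rwa [one_mul]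
        add_mem' := fun {a b} ha hb d hd => by
          convert (ha d hd).add_right (hb d hd) using 1
          ext x; simp [hc, add_mul]
        zero_mem' := fun d hd => by
          convert T.zero_right (M := M) s using 1
          ext x; simp [hc]
        neg_mem' := fun {a} ha d hd => by
          convert (ha d hd).neg_right using 1
          ext x; simp [hc] }
    intro k
    have := forall_of_norm_one hr E (fun k hk d hd => ?_) k 1 (by rwa [one_smul])
    · rwa [mul_one] at this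
    have hk0 : k ≠ 0 := by rintro rfl; simp at hk
    obtain ⟨g, hg, hx⟩ := hK φ ((k⁻¹ - 1) • w) (by simp [hw, Algebra.norm_inv, hk])
    have := hd.conj' (ψ := c ((k * d) • φ)) hg fun x => by
      simp only [hc, hx, kt_apply, map_add, map_smul, LinearMap.smul_apply, smul_eq_mul, hw]
      rw [← map_add]; congr 1; field_simp; ring
    rwa [hx, kt_apply, h0, zero_smul, add_zero] at this
  have hP : ∀ ψ : Dual K V, ψ s = 0 → T M s (c ψ) := by
    intro ψ hψ
    have h1 : (ψ - ψ w • φ) w = 0 := by simp [hw]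
    have := (hb (ψ w)).add_right (h.comm_right (hK.tv h1)
      (fun x => by rw [kt_apply, kt_apply, map_smul, h1]; simp) (by simp [kt_apply, hψ, h0]))
    convert this using 1
    ext x; simp [hc, hw]
  have hall : ∀ a (ψ : Dual K V), ψ a = 0 → T M a (c ψ) := by
    intro a
    by_cases ha : a = 0
    · intro ψ _; rw [ha]; exact T.zero_left _
    refine move_ind hn (P := fun a => ∀ ψ : Dual K V, ψ a = 0 → T M a (c ψ)) ?_ hs hP ha
    intro s χ w hχ hP ψ hψ
    obtain ⟨g, hg, hx⟩ := hK.tv hχ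
    have := (hP (ψ + ψ w • χ) (by simpa [mul_comm] using hψ)).conj' (ψ := c ψ) hg fun x => by
      simp [hc, hx, kt_apply, mul_comm]
    rwa [hx] at this
  refine sl_of_T fun a f hfa => ?_
  obtain ⟨φ, rfl⟩ := hsurj f
  by_cases h0 : φ a = 0
  · exact hall a φ h0
  obtain ⟨b, hb, hφb⟩ := exists_ker_ne_zero hn φ
  obtain ⟨ψ, h1, h2⟩ := exists_dual_two (F := K) (a := a) (x := b) (not_mem_span_symm (fun e => by
    obtain ⟨k, rfl⟩ := Submodule.mem_span_singleton.1 e
    simp [hφb] at h0) hb)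
  have := (hall a ψ h1).comm (hall b φ hφb) hfa
  simpa [hc, h2, hτ] using this

section Special

open Matrix

theorem eq_zero_or_one (hq : Nat.card F = 2) (a : F) : a = 0 ∨ a = 1 := by
  by_contra h
  push Not at h
  classical
  have := Fintype.ofFinite F
  have : ({0, 1, a} : Finset F).card ≤ Fintype.card F := Finset.card_le_univ _
  rw [Finset.card_eq_three.2 ⟨0, 1, a, zero_ne_one, h.1.symm, h.2.symm, rfl⟩,
    ← Nat.card_eq_fintype_card, hq] at this
  omega

theorem special (hH : ∀ g, LinearEquiv.det g = 1 → Semi K g → g ∈ M) (hq : Nat.card F = 2)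
    (hr : finrank F K = 2) (hn : finrank K V = 2) {s x : V} (hs : s ≠ 0) (hx : x ∉ K ∙ s)
    {ω : K} (hω : ∀ c : F, algebraMap F K c ≠ ω) {N : V →ₗ[F] V} (hN : R M N) (h1 : N s = 0)
    (h2 : N x = 0) (h3 : N (ω • s) = x) {a b : F} (h4 : N (ω • x) = a • s + b • x) :
    ∃ (s : V) (f : Dual F V), T M s f ∧ s ≠ 0 ∧ f ≠ 0 := by
  have : FiniteDimensional F V := Module.Finite.trans K V
  have h01 := eq_zero_or_one hq
  have h2F : (1 : F) + 1 = 0 := by
    rcases h01 (1 + 1) with h | h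
    · exact h
    · simp at h
  have : CharP F 2 := (CharP.charP_iff_prime_eq_zero Nat.prime_two).2 (by norm_num at h2F ⊢; exact h2F)
  have hind : ∀ c d : F, algebraMap F K c + algebraMap F K d * ω = 0 → c = 0 ∧ d = 0 := by
    intro c d h
    rcases h01 d with rfl | rfl
    · simpa using h
    · exact absurd (by rw [map_neg]; simp at h; linear_combination -h) (hω (-c))
  have hspan : ∀ k : K, ∃ c d : F, k = algebraMap F K c + algebraMap F K d * ω := by
    intro k
    have hli : LinearIndependent F ![(1 : K), ω] := by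
      rw [LinearIndependent.pair_iff]
      intro c d h
      exact hind c d (by simpa [Algebra.smul_def] using h)
    have := (hli.span_eq_top_of_card_eq_finrank' (by simp [hr])).ge (Submodule.mem_top (x := k))
    rw [Submodule.mem_span_range_iff_exists_fun] at this
    obtain ⟨c, hc⟩ := this
    exact ⟨c 0, c 1, by rw [← hc]; simp [Algebra.smul_def]⟩
  have hωω : ω * ω = 1 + ω := by
    obtain ⟨c, d, h⟩ := hspan (ω * ω)
    have h2K : (1 : K) + 1 = 0 := by simpa using congrArg (algebraMap F K) h2F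
    have n0 : ω ≠ 0 := fun e => hω 0 (by simp [e])
    have n1 : ω ≠ 1 := fun e => hω 1 (by simp [e])
    rcases h01 c with rfl | rfl <;> rcases h01 d with rfl | rfl <;>
      simp only [map_zero, map_one, zero_mul, one_mul, add_zero, zero_add] at h
    · simp [n0] at h
    · exact absurd (mul_left_cancel₀ n0 (h.trans (mul_one ω).symm)) n1
    · have : (ω - 1) ^ 2 = 0 := by linear_combination h + (1 - ω) * h2K
      exact absurd (sub_eq_zero.1 (pow_eq_zero_iff two_ne_zero |>.1 this)) n1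
    · exact h
  let e₀ : (Fin 4 → F) →ₗ[F] V := Fintype.linearCombination F ![s, ω • s, x, ω • x]
  have he₀ : ∀ c, e₀ c = c 0 • s + c 1 • ω • s + c 2 • x + c 3 • ω • x := fun c => by
    simp [e₀, Fintype.linearCombination_apply, Fin.sum_univ_four]
  have hinj : Function.Injective e₀ := by
    rw [injective_iff_map_eq_zero]
    intro c hc
    have hc' : (algebraMap F K (c 2) + algebraMap F K (c 3) * ω) • x =
        (-(algebraMap F K (c 0) + algebraMap F K (c 1) * ω)) • s := by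
      rw [he₀] at hc
      rw [neg_smul, eq_neg_iff_add_eq_zero, ← hc]
      simp only [add_smul, mul_smul, algebraMap_smul]; abel
    have e1 : algebraMap F K (c 2) + algebraMap F K (c 3) * ω = 0 := by
      by_contra h0
      exact hx (Submodule.mem_span_singleton.2 ⟨_, by
        rw [mul_smul, ← hc', smul_smul, inv_mul_cancel₀ h0, one_smul]⟩)
    rw [e1, zero_smul, eq_comm, smul_eq_zero, neg_eq_zero] at hc'
    obtain ⟨a0, a1⟩ := hind _ _ (hc'.resolve_right hs)
    obtain ⟨a2, a3⟩ := hind _ _ e1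
    funext i; fin_cases i <;> assumption
  let e : (Fin 4 → F) ≃ₗ[F] V := LinearEquiv.ofBijective e₀ ⟨hinj,
    (LinearMap.injective_iff_surjective_of_finrank_eq_finrank (by
      rw [← finrank_mul_finrank F K V, hr, hn]; simp)).1 hinj⟩
  have he : ∀ c, e c = c 0 • s + c 1 • ω • s + c 2 • x + c 3 • ω • x := he₀
  let ρ : ZMod 2 →+* F := ZMod.castHom (dvd_refl 2) F
  let I : Matrix (Fin 4) (Fin 4) (ZMod 2) → Prop := fun A =>
    ∃ g ∈ M, ∀ c, g (e c) = e (A.map ρ *ᵥ c)
  have Imul : ∀ A B, I A → I B → I (A * B) := by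
    rintro A B ⟨g, hg, h⟩ ⟨g', hg', h'⟩
    exact ⟨g * g', M.mul_mem hg hg', fun c => by
      rw [LinearEquiv.mul_apply, h', h, mulVec_mulVec, Matrix.map_mul]⟩
  let W : Matrix (Fin 4) (Fin 4) (ZMod 2) := !![0, 1, 0, 0; 1, 1, 0, 0; 0, 0, 0, 1; 0, 0, 1, 1]
  have hW : ∀ c, e (W.map ρ *ᵥ c) = ω • e c := fun c => by
    have : ∀ (c : F) (v : V), ω • c • v = c • ω • v := fun c v => smul_comm _ _ _
    simp [he, W, mulVec, dotProduct, Fin.sum_univ_four, this, smul_smul ω ω, hωω, add_smul]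
    abel
  have IH : ∀ A B, A * B = 1 → A * W = W * A → I A := by
    intro A B hAB hAW
    have e1 : A.map ρ * B.map ρ = 1 := by rw [← Matrix.map_mul, hAB]; simp
    let g := cong e (Orth.glEquiv (Fin 4) F ⟨A.map ρ, B.map ρ, e1, mul_eq_one_comm.1 e1⟩)
    have hg : ∀ c, g (e c) = e (A.map ρ *ᵥ c) := fun c => by simp [g, cong_apply]
    refine ⟨g, hH g ?_ fun k => ⟨k, fun v => ?_⟩, hg⟩
    · apply Units.ext
      exact (h01 _).resolve_left (LinearEquiv.det g).ne_zero
    · obtain ⟨c, d, rfl⟩ := hspan k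
      obtain ⟨v, rfl⟩ := e.surjective v
      simp only [add_smul, mul_smul, algebraMap_smul, map_add, map_smul]
      rw [← hW, hg, hg, ← hW, mulVec_mulVec, mulVec_mulVec, ← Matrix.map_mul, ← Matrix.map_mul, hAW]
  have IE : ∀ a' b', ρ a' = a → ρ b' = b →
      I !![1, 0, 0, a'; 0, 1, 0, 0; 0, 1, 1, b'; 0, 0, 0, 1] := by
    rintro a' b' rfl rfl
    obtain ⟨g, hg, hx⟩ := hN
    refine ⟨g, hg, fun c => ?_⟩
    simp [hx, he, mulVec, dotProduct, Fin.sum_univ_four, h1, h2, h3, h4, add_smul, smul_smul,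
      mul_comm]
    abel
  have fin : ∀ (A B E : Matrix (Fin 4) (Fin 4) (ZMod 2)) (u v : Fin 4 → ZMod 2) (i j : Fin 4),
      I E → A * B = 1 → A * W = W * A → E * A * (E * A) * (E * A) = 1 + vecMulVec u v →
      v ⬝ᵥ u = 0 → u i = 1 → v j = 1 → ∃ (s : V) (f : Dual F V), T M s f ∧ s ≠ 0 ∧ f ≠ 0 := by
    intro A B E u v i j hE h1 h2 h3 h4 h5 h6
    have hI := Imul _ _ hE (IH A B h1 h2)
    obtain ⟨g, hg, hx⟩ := h3 ▸ Imul _ _ (Imul _ _ hI hI) hI
    let f : Dual F V := (dotProductBilin F F (ρ ∘ v)) ∘ₗ (e.symm : V →ₗ[F] (Fin 4 → F))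
    have hf : ∀ c, f (e c) = (ρ ∘ v) ⬝ᵥ c := fun c => by simp [f]
    refine ⟨e (ρ ∘ u), f, ⟨?_, g, hg, fun y => ?_⟩, fun h => ?_, fun h => ?_⟩
    · rw [hf, ← RingHom.map_dotProduct, h4, map_zero]
    · obtain ⟨c, rfl⟩ := e.surjective y
      rw [hx, LinearMap.smulRight_apply, hf, ← map_smul, ← map_add]
      congr 1
      rw [Matrix.map_add _ (map_add ρ), Matrix.map_one _ (map_zero ρ) (map_one ρ), add_mulVec,
        one_mulVec]
      congr 1
      funext k
      simp [mulVec, dotProduct, vecMulVec_apply, Finset.mul_sum, mul_comm, mul_left_comm]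
    · have := congrFun (e.map_eq_zero_iff.1 h) i
      simp [h5] at this
    · have := hf (Pi.single j 1)
      simp [h, h6] at this
  rcases h01 a with rfl | rfl <;> rcases h01 b with rfl | rfl
  · exact fin !![0, 0, 0, 1; 0, 0, 1, 1; 1, 1, 0, 0; 1, 0, 0, 0]
      !![0, 0, 0, 1; 0, 0, 1, 1; 1, 1, 0, 0; 1, 0, 0, 0] _ ![1, 0, 1, 1] ![1, 0, 0, 1] 0 0
      (IE 0 0 (map_zero _) (map_zero _)) (by decide) (by decide) (by decide) (by decide) rfl rfl
  · exact fin !![0, 0, 0, 1; 0, 0, 1, 1; 0, 1, 0, 0; 1, 1, 0, 0]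
      !![0, 0, 1, 1; 0, 0, 1, 0; 1, 1, 0, 0; 1, 0, 0, 0] _ ![1, 0, 1, 1] ![1, 0, 1, 0] 0 0
      (IE 0 1 (map_zero _) (map_one _)) (by decide) (by decide) (by decide) (by decide) rfl rfl
  · exact fin !![0, 1, 0, 0; 1, 1, 0, 0; 0, 0, 1, 0; 0, 0, 0, 1]
      !![1, 1, 0, 0; 1, 0, 0, 0; 0, 0, 1, 0; 0, 0, 0, 1] _ ![0, 0, 1, 0] ![0, 0, 0, 1] 2 3
      (IE 1 0 (map_one _) (map_zero _)) (by decide) (by decide) (by decide) (by decide) rfl rfl
  · exact fin !![0, 0, 0, 1; 0, 0, 1, 1; 1, 0, 0, 0; 0, 1, 0, 0]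
      !![0, 0, 1, 0; 0, 0, 0, 1; 1, 1, 0, 0; 1, 0, 0, 0] _ ![0, 1, 0, 1] ![1, 0, 1, 0] 1 0
      (IE 1 1 (map_one _) (map_one _)) (by decide) (by decide) (by decide) (by decide) rfl rfl

end Special

end Cfsg.Agent.Max2
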