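import Mathlib
import Cfsg.Agent.Max2.ExtSL

/-!
# Maximality of `ΓL_n(K) ∩ SL` in `SL_{nr}(F)`, `[K : F] = r` prime, `n ≥ 2`
-/

set_option autoImplicit false

namespace Cfsg.Agent.Max2

open Module Cfsg.Agent.Max

section General

variable {F V : Type*} [Field F] [AddCommGroup V] [Module F V]

/-- `1 + θ` lies in `M`, fixes `X` pointwise and acts trivially on `V / X`. -/
structure AX (M : Subgroup (V ≃ₗ[F] V)) (X : Submodule F V) (θ : V →ₗ[F] V) : Prop where
  mem : R M θ
  ker : ∀ x ∈ X, θ x = 0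
  rg : ∀ v, θ v ∈ X

/-- Conjugation of an endomorphism. -/
abbrev cjm (g : V ≃ₗ[F] V) (θ : V →ₗ[F] V) : V →ₗ[F] V :=
  (g : V →ₗ[F] V) ∘ₗ θ ∘ₗ (g.symm : V →ₗ[F] V)

theorem cjm_apply (g : V ≃ₗ[F] V) (θ : V →ₗ[F] V) (v : V) : cjm g θ v = g (θ (g.symm v)) := rfl

variable {M : Subgroup (V ≃ₗ[F] V)} {X : Submodule F V} {θ θ' : V →ₗ[F] V}

namespace AX

theorem sq (h : AX M X θ) (v : V) : θ (θ v) = 0 := h.ker _ (h.rg v)

theorem zero : AX M X 0 := ⟨R.zero, fun _ _ => rfl, fun _ => X.zero_mem⟩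

theorem congr (h : AX M X θ) (e : ∀ v, θ v = θ' v) : AX M X θ' := by
  obtain rfl : θ = θ' := LinearMap.ext e
  exact h

theorem add (h : AX M X θ) (h' : AX M X θ') : AX M X (θ + θ') :=
  ⟨h.mem.add h'.mem fun v => h.ker _ (h'.rg v), fun x hx => by simp [h.ker x hx, h'.ker x hx],
    fun v => X.add_mem (h.rg v) (h'.rg v)⟩

theorem neg (h : AX M X θ) : AX M X (-θ) :=
  ⟨h.mem.neg h.sq, fun x hx => by simp [h.ker x hx], fun v => X.neg_mem (h.rg v)⟩

theorem sub (h : AX M X θ) (h' : AX M X θ') : AX M X (θ - θ') :=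
  (h.add h'.neg).congr fun v => by simp [sub_eq_add_neg]

theorem conj (h : AX M X θ) {g : V ≃ₗ[F] V} (hg : g ∈ M) : AX M (im X g) (cjm g θ) :=
  ⟨h.mem.conj hg, fun x hx => by rw [cjm_apply, h.ker _ (mem_im.1 hx), map_zero],
    fun v => apply_mem_im.2 (h.rg _)⟩

theorem conj_symm {g : V ≃ₗ[F] V} (h : AX M (im X g) θ) (hg : g ∈ M) :
    AX M X (cjm g.symm θ) := by
  have := h.conj (M.inv_mem hg)
  rwa [← im_mul, inv_mul_cancel, im_one] at this

/-- The commutator with an element `1 + N`, `N² = 0`, stabilising `X`. -/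
theorem comm (h : AX M X θ) {N : V →ₗ[F] V} (hN : R M N) (e : ∀ v, N (N v) = 0)
    (hX : ∀ x ∈ X, N x ∈ X) : AX M X (N ∘ₗ θ - θ ∘ₗ N - N ∘ₗ θ ∘ₗ N) := by
  have h1 : im X (uni N e) = X := by
    ext v
    rw [mem_im, uni_symm_apply]
    refine ⟨fun hv => ?_, fun hv => X.sub_mem hv (hX v hv)⟩
    have := X.add_mem hv (hX _ hv)
    simpa [e] using this
  have h2 := h.conj (hN.uni_mem e)
  rw [h1] at h2
  refine (h2.sub h).congr fun v => ?_
  rw [LinearMap.sub_apply, cjm_apply, uni_symm_apply, uni_apply]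
  simp only [LinearMap.sub_apply, map_sub, LinearMap.comp_apply]
  abel

end AX

end General

variable {F K V : Type*} [Field F] [Field K] [Algebra F K] [AddCommGroup V] [Module F V]
  [Module K V] [IsScalarTower F K V] {M : Subgroup (V ≃ₗ[F] V)}

theorem KLe.ax (h : KLe K M) {ψ : Dual K V} {u w : V} (e : ψ u = 0) (hw : w ∈ line F K u) :
    AX M (line F K u) (kt F ψ w) :=
  ⟨h.tv (dual_line e hw), fun x hx => by rw [kt_apply, dual_line e hx, zero_smul],
    fun _ => line_smul hw _⟩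

/-- If enough elements `z ↦ z + φ z • s` are present, `φ` takes values in `F` on `X`. -/
theorem Pair.phi_mem [FiniteDimensional F V] (hr : (finrank F K).Prime) {u : V}
    {m : V ≃ₗ[F] V} (h : Pair M (line F K u) m) {x : V} (hx : x ∈ im (line F K u) m)
    (hxL : x ∉ line F K u) {φ : V → K} (h1 : φ x = 1)
    (ht : ∀ s ∈ line F K u, s ∈ im (line F K u) m → ∃ t ∈ M, (∀ l ∈ line F K u, t l = l) ∧
      ∀ z ∈ im (line F K u) m, t z = z + φ z • s)
    {z : V} (hz : z ∈ im (line F K u) m) : ∃ c : F, algebraMap F K c = φ z := by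
  obtain ⟨s, hs0, hs⟩ := h.exists_S
  obtain ⟨y, hy, hyX⟩ := h.exists_L
  refine mem_range_of_stab hr (S := line F K u ⊓ im (line F K u) m) inf_le_left hs hs0 hy
    (fun e => hyX e.2) fun s hs => ⟨line_smul hs.1 _, ?_⟩
  obtain ⟨t, ht, h2, h3⟩ := ht s hs.1 hs.2
  have := h.stabX ht (fun s hs hs' => by rwa [h2 s hs]) hx hxL
    (by rw [h3 x hx, h1, one_smul]; exact Submodule.add_mem _ hx hs.2) z hz
  rw [h3 z hz] at this
  exact (Submodule.add_mem_iff_right _ hz).1 this

variable [Finite F] [FiniteDimensional F K] [FiniteDimensional K V]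

omit [FiniteDimensional K V] in
theorem AX.smulK (hK : KLe K M) (hr : 2 ≤ finrank F K) {u : V} (hu : u ≠ 0) {θ : V →ₗ[F] V}
    (h : AX M (line F K u) θ) (k : K) : AX M (line F K u) (k • θ) := by
  let E : Subring K :=
    { carrier := {k | ∀ θ : V →ₗ[F] V, AX M (line F K u) θ → AX M (line F K u) (k • θ)}
      mul_mem' := fun {a b} ha hb θ h => by rw [mul_smul]; exact ha _ (hb θ h)
      one_mem' := fun θ h => by rwa [one_smul]
      add_mem' := fun {a b} ha hb θ h => by rw [add_smul]; exact (ha θ h).add (hb θ h)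
      zero_mem' := fun θ h => by rw [zero_smul]; exact AX.zero
      neg_mem' := fun {a} ha θ h => by rw [neg_smul]; exact (ha θ h).neg }
  refine forall_of_norm_one hr E (fun k hk θ h => ?_) k θ h
  obtain ⟨χ, hχ⟩ := exists_dual_one (F := K) hu
  obtain ⟨g, hg, hx⟩ := hK χ ((k - 1) • u) (by simp [hχ, hk])
  refine ⟨h.mem.conj' hg fun v => ?_, fun x hx => by simp [h.ker x hx],
    fun v => line_smul (h.rg v) k⟩
  obtain ⟨c, hc⟩ := mem_line.1 (h.rg v)
  rw [hx, hx, LinearMap.smul_apply, map_add, kt_apply, h.ker _ (line_smul (smul_mem_line _ _) _),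
    ← hc, kt_apply]
  simp only [add_zero, map_smul, hχ, smul_eq_mul, mul_one, smul_smul, ← add_smul]
  congr 1; ring

omit [Finite F] in
theorem Pair.codim (hK : KLe K M) (hr : (finrank F K).Prime) {u : V} {m : V ≃ₗ[F] V}
    (h : Pair M (line F K u) m) {x : V} (hx : x ∈ im (line F K u) m) (hxL : x ∉ line F K u)
    {z : V} (hz : z ∈ im (line F K u) m) : ∃ c : F, z - c • x ∈ line F K u := by
  have : FiniteDimensional F V := Module.Finite.trans K V
  have key : ∀ φ : Dual K V, φ u = 0 → φ x = 1 → ∃ c : F, algebraMap F K c = φ z := by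
    intro φ h0 h1
    refine h.phi_mem hr hx hxL h1 (fun s hs _ => ?_) hz
    obtain ⟨t, ht, e⟩ := hK.tv (dual_line h0 hs)
    exact ⟨t, ht, fun l hl => by rw [e, kt_apply, dual_line h0 hl, zero_smul, add_zero],
      fun z _ => e z⟩
  obtain ⟨φ, h0, h1⟩ := exists_dual_two (F := K) hxL
  obtain ⟨c, hc⟩ := key φ h0 h1
  refine ⟨c, ?_⟩
  by_contra hn
  obtain ⟨ψ, e0, e1⟩ := exists_dual_two (F := K) hn
  obtain ⟨k, hk⟩ := exists_not_mem_range (F := F) (K := K) hr.two_le
  have e2 : (ψ - ψ x • φ) z = 1 := by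
    rw [← algebraMap_smul K c x, map_sub, map_smul] at e1
    simpa [← hc, mul_comm] using e1
  obtain ⟨d, hd⟩ := key (φ + k • (ψ - ψ x • φ)) (by simp [h0, e0]) (by simp [h1])
  rw [LinearMap.add_apply, LinearMap.smul_apply, e2, ← hc] at hd
  exact hk (d - c) (by rw [map_sub, hd]; simp)

theorem exists_tv_ext (hH : ∀ g, LinearEquiv.det g = 1 → Semi K g → g ∈ M)
    (hr : (finrank F K).Prime) (hn : 2 ≤ finrank K V) {g : V ≃ₗ[F] V} (hg : g ∈ M)
    (hgH : ¬ Semi K g) : ∃ (s : V) (f : Dual F V), T M s f ∧ s ≠ 0 ∧ f ≠ 0 := by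
  have : FiniteDimensional F V := Module.Finite.trans K V
  have hK := kle_of hH
  obtain ⟨v, k, hvk⟩ : ∃ v, ∃ k : K, g (k • v) ∉ line F K (g v) := by
    by_contra hn'
    push Not at hn'
    exact hgH (semi_of_lines hn fun v k => by
      obtain ⟨k', hk'⟩ := mem_line.1 (hn' v k); exact ⟨k', hk'.symm⟩)
  have hv : v ≠ 0 := by rintro rfl; simp at hvk
  set u := g v
  have hu : u ≠ 0 := by simpa [u] using hv
  obtain ⟨t, ht, hts, htu⟩ : ∃ t ∈ M, (∀ (k : K) v, t (k • v) = k • t v) ∧ t u = v := by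
    refine move_ind hn (P := fun a => ∃ t ∈ M, (∀ (k : K) v, t (k • v) = k • t v) ∧ t u = a)
      ?_ hu ⟨1, M.one_mem, fun _ _ => rfl, rfl⟩ hv
    rintro s χ w hχ ⟨t, ht, h1, rfl⟩
    obtain ⟨t', ht', e⟩ := hK.tv hχ
    exact ⟨t' * t, M.mul_mem ht' ht, fun k v => by
      simp [e, h1, kt_apply, smul_smul], by simp [e, kt_apply]⟩
  obtain ⟨m, h⟩ : ∃ m, Pair M (line F K u) m := by
    refine exists_pair (M.mul_mem hg ht) (fun e => hvk ?_) fun e => hu ?_
    · rw [← e, ← htu, ← hts]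
      exact apply_mem_im.2 (smul_mem_line k u)
    · rw [← Submodule.mem_bot F, ← e]
      refine ⟨self_mem_line u, ?_⟩
      have : (g * t) u ∈ im (line F K u) (g * t) := apply_mem_im.2 (self_mem_line u)
      rwa [LinearEquiv.mul_apply, htu] at this
  clear_value u
  clear hts htu ht t hvk hv k v hgH hg g
  set L := line F K u with hL
  obtain ⟨x, hx, hxL⟩ := h.exists_X
  obtain ⟨s, hs0, hsL, hsX⟩ := h.exists_S
  obtain ⟨ω, hω⟩ := exists_not_mem_range (F := F) (K := K) hr.two_le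
  obtain ⟨y, hy, hyX, hyω⟩ : ∃ y ∈ L, y ∉ im L m ∧ (finrank F K = 2 → y = ω • s) := by
    by_cases hr2 : finrank F K = 2
    · refine ⟨ω • s, line_smul hsL _, fun e => ?_, fun _ => rfl⟩
      obtain ⟨y, hy, hyX⟩ := h.exists_L
      have h1 : finrank F ↥(L ⊓ im L m) < finrank F L :=
        Submodule.finrank_lt_finrank_of_lt (lt_of_le_of_ne inf_le_left fun e' => hyX (by
          rw [← e'] at hy; exact hy.2))
      rw [hL, finrank_line hu, hr2] at h1
      have h2 : (F ∙ s) = L ⊓ im L m := Submodule.eq_of_le_of_finrank_le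
        ((Submodule.span_singleton_le_iff_mem _ _).2 ⟨hsL, hsX⟩)
        (by rw [finrank_span_singleton hs0]; exact Nat.lt_succ_iff.1 h1)
      have h3 : ω • s ∈ F ∙ s := by rw [h2]; exact ⟨line_smul hsL _, e⟩
      obtain ⟨c, hc⟩ := Submodule.mem_span_singleton.1 h3
      rw [← algebraMap_smul K c s] at hc
      exact hω c (smul_left_injective K hs0 hc)
    · obtain ⟨y, hy, hyX⟩ := h.exists_L
      exact ⟨y, hy, hyX, fun e => absurd e hr2⟩
  obtain ⟨ξ, hξL, hξx⟩ := exists_dual L hxL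
  obtain ⟨η, hηX, hηy⟩ := exists_dual (im L m) hyX
  obtain ⟨φ, hφu, hφx⟩ := exists_dual_two (F := K) hxL
  have hφL : ∀ l ∈ L, φ l = 0 := fun l hl => dual_line hφu hl
  have cX : ∀ z ∈ im L m, z - ξ z • x ∈ L := by
    intro z hz
    obtain ⟨c, hc⟩ := h.codim hK hr hx hxL hz
    have := hξL _ hc
    simp only [map_sub, map_smul, hξx, smul_eq_mul, mul_one, sub_eq_zero] at this
    rwa [this]
  have hφX : ∀ z ∈ im L m, ∀ w : V, φ z • w = ξ z • w := by
    intro z hz w
    have := hφL _ (cX z hz)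
    rw [map_sub, ← algebraMap_smul K (ξ z) x, map_smul, hφx, smul_eq_mul, mul_one,
      sub_eq_zero] at this
    rw [this, algebraMap_smul]
  have hy' : m.symm y ∉ L := fun e => hyX (mem_im.2 e)
  have cL : ∀ l ∈ L, l - η l • y ∈ im L m := by
    intro l hl
    obtain ⟨c, hc⟩ := h.symm.codim hK hr (x := m.symm y) (apply_mem_im.2 hy) hy'
      (z := m.symm l) (apply_mem_im.2 hl)
    have hc' : l - c • y ∈ im L m := mem_im.2 (by simpa using hc)
    have := hηX _ hc'
    simp only [map_sub, map_smul, hηy, smul_eq_mul, mul_one, sub_eq_zero] at this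
    rwa [this]
  have hAL : ∀ θ, AX M (im L m) θ → ∀ l ∈ L, θ l = η l • θ y := by
    intro θ hθ l hl
    have := hθ.ker _ (cL l hl)
    rwa [map_sub, map_smul, sub_eq_zero] at this
  have finish : ∀ θ, AX M (im L m) θ → θ ≠ 0 → θ y = 0 →
      ∃ (s : V) (f : Dual F V), T M s f ∧ s ≠ 0 ∧ f ≠ 0 := by
    intro θ hθ h0 hθy
    obtain ⟨v, hv⟩ : ∃ v, θ v ≠ 0 := by
      by_contra hn'; push Not at hn'; exact h0 (LinearMap.ext hn')
    obtain ⟨k, hk⟩ := exists_smul_of_line (mem_im.1 (hθ.rg v)) (by simpa using hv) (mem_im.1 hx)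
    have h1 := ((hθ.conj_symm h.mem).smulK hK hr.two_le hu k).conj h.mem
    set θ₁ := cjm m (k • cjm m.symm θ)
    have e1 : ∀ v, θ₁ v = m (k • m.symm (θ v)) := fun v => by simp [θ₁]
    have e2 : ∀ l ∈ L, θ₁ l = 0 := fun l hl => by rw [hAL _ h1 l hl, e1, hθy]; simp
    have h2 := (hK.ax hφu hsL).mem.comm h1.mem (hK.ax hφu hsL).sq h1.sq
      fun v => e2 _ ((hK.ax hφu hsL).rg v)
    refine ⟨s, ξ ∘ₗ θ₁, T.of_R h2 (by simp [e2 s hsL]) fun v => hφX _ (h1.rg v) s, hs0, fun e => ?_⟩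
    have := congrArg (fun f : Dual F V => f v) e
    simp [e1, hk, hξx] at this
  by_cases hn3 : 3 ≤ finrank K V
  · obtain ⟨z, -, hz⟩ := exists_not_mem_of_finrank_lt (W := Submodule.span K {u, m.symm y})
      (U := ⊤) (lt_of_le_of_lt (finrank_span_pair_le _ _) (by rw [finrank_top]; omega))
    obtain ⟨ψ, e1, e2, e3⟩ := exists_dual_three hz
    refine finish _ ((hK.ax e1 (self_mem_line u)).conj h.mem) (fun e => hu ?_)
      (by simp [e2])
    have := congrArg (fun f : V →ₗ[F] V => f (m z)) e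
    simpa [kt_apply, e3] using this
  obtain ⟨ψ, hψu, hψy⟩ := exists_dual_two (F := K) hy'
  let N' : V → V →ₗ[F] V := fun z => cjm m (kt F ψ (m.symm z))
  have hN' : ∀ z ∈ im L m, AX M (im L m) (N' z) := fun z hz => (hK.ax hψu (mem_im.1 hz)).conj h.mem
  have hN'y : ∀ z, N' z y = z := fun z => by simp [N', hψy]
  have hc : ∀ c : F, AX M (im L m) (kt F φ (c • s) ∘ₗ N' x - N' x ∘ₗ kt F φ (c • s) -
      kt F φ (c • s) ∘ₗ N' x ∘ₗ kt F φ (c • s)) := fun c =>
    (hN' x hx).comm (hK.ax hφu (L.smul_mem c hsL)).mem (hK.ax hφu (L.smul_mem c hsL)).sq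
      fun z hz => by
        rw [kt_apply, hφX z hz]; exact Submodule.smul_mem _ _ (Submodule.smul_mem _ _ hsX)
  have e1 : ∀ (c : F) v, kt F φ (c • s) (N' x v) = (c * ξ (N' x v)) • s := fun c v => by
    rw [kt_apply, hφX _ ((hN' x hx).rg v), smul_smul, mul_comm]
  have e2 : ∀ (c : F) v, N' x (kt F φ (c • s) v) = (c * η (φ v • s)) • x := fun c v => by
    rw [hAL _ (hN' x hx) _ ((hK.ax hφu (L.smul_mem c hsL)).rg v), hN'y, kt_apply, smul_comm,
      map_smul, smul_eq_mul]
  have e3 : ∀ (c : F) v, (kt F φ (c • s) ∘ₗ N' x - N' x ∘ₗ kt F φ (c • s) -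
      kt F φ (c • s) ∘ₗ N' x ∘ₗ kt F φ (c • s)) v =
      (c * ξ (N' x v)) • s - (c * η (φ v • s)) • x - (c * c * η (φ v • s)) • s := fun c v => by
    simp only [LinearMap.sub_apply, LinearMap.comp_apply]
    rw [e1, e1, e2, ξ.map_smul, hξx, smul_eq_mul, mul_one, mul_assoc]
  by_cases hr3 : 3 ≤ finrank F K
  · refine finish _ ((hc 1).sub (hN' s hsX)) (fun e => ?_) ?_
    · have : im L m ≤ Submodule.span F {s, x} := by
        intro z hz
        obtain ⟨k, hk⟩ := exists_smul_of_line (mem_im.1 hsX) (by simpa using hs0) (mem_im.1 hz)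
        have e4 : N' s (m (k • m.symm y)) = z := by simp [N', hψy, hk]
        have := congrArg (fun f : V →ₗ[F] V => f (m (k • m.symm y))) e
        simp only [LinearMap.zero_apply] at this
        rw [LinearMap.sub_apply, e3, e4, sub_eq_zero] at this
        rw [← this]
        have a1 : s ∈ Submodule.span F {s, x} := Submodule.subset_span (by simp)
        have a2 : x ∈ Submodule.span F {s, x} := Submodule.subset_span (by simp)
        exact sub_mem (sub_mem (Submodule.smul_mem _ _ a1) (Submodule.smul_mem _ _ a2))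
          (Submodule.smul_mem _ _ a1)
      have := (Submodule.finrank_mono this).trans (finrank_span_pair_le s x)
      rw [finrank_im, hL, finrank_line hu] at this
      omega
    · rw [LinearMap.sub_apply, e3, hN'y, hN'y, hφL y hy]; simp [hξx]
  by_cases hq : Nat.card F = 2
  · have hr2 : finrank F K = 2 := by have := hr.two_le; omega
    have h5 := (hN' x hx).rg (ω • x)
    have h6 := cX _ h5
    have h7 := cL _ h6
    obtain ⟨k, hk⟩ := exists_smul_of_line hsL hs0 h6
    have hη0 : η (N' x (ω • x) - ξ (N' x (ω • x)) • x) = 0 :=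
      hηX _ (sub_mem h5 (Submodule.smul_mem _ _ hx))
    obtain ⟨a, ha⟩ : ∃ a : F, algebraMap F K a = k := by
      have hli : LinearIndependent F ![(1 : K), ω] := by
        rw [LinearIndependent.pair_iff]
        intro c d h
        rcases eq_zero_or_one hq d with rfl | rfl
        · simpa using h
        · exact absurd (by rw [map_neg]; simp [Algebra.smul_def] at h; linear_combination -h)
            (hω (-c))
      have := (hli.span_eq_top_of_card_eq_finrank' (by simp [hr2])).ge (Submodule.mem_top (x := k))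
      rw [Submodule.mem_span_range_iff_exists_fun] at this
      obtain ⟨c, hc⟩ := this
      rw [← hk, ← hc] at hη0
      simp only [Fin.sum_univ_two, Matrix.cons_val_zero, Matrix.cons_val_one, add_smul,
        smul_assoc, one_smul, ← hyω hr2, map_add, map_smul, hηy, hηX s hsX, smul_eq_mul, mul_zero,
        zero_add, mul_one] at hη0
      exact ⟨c 0, by rw [← hc]; simp [hη0, Algebra.smul_def]⟩
    refine special hH hq hr2 (by omega) hs0 (x := x)
      (fun e => hxL ((Submodule.span_singleton_le_iff_mem _ (K ∙ u)).2 hsL e)) hω (hN' x hx).mem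
      ((hN' x hx).ker s hsX) ((hN' x hx).ker x hx) (by rw [← hyω hr2, hN'y]) (a := a)
      (b := ξ (N' x (ω • x))) ?_
    rw [← algebraMap_smul K a s, ha, hk, sub_add_cancel]
  obtain ⟨μ, hμ0, hμ1⟩ : ∃ μ : F, μ ≠ 0 ∧ μ ≠ 1 := by
    by_contra hn'
    push Not at hn'
    apply hq
    rw [Nat.card_eq_two_iff]
    refine ⟨0, 1, zero_ne_one, Set.eq_univ_of_forall fun a => ?_⟩
    by_cases h0 : a = 0
    · simp [h0]
    · simp [hn' a h0]
  have h1 := (((hc 1).conj_symm h.mem).smulK hK hr.two_le hu (algebraMap F K μ)).conj h.mem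
  have h2 := h1.sub (hc μ)
  obtain ⟨k, hk⟩ := exists_smul_of_line hsL hs0 hy
  refine ⟨s, (μ * μ - μ) • η ∘ₗ kt F φ s, T.of_R h2.mem (by simp [hφL s hsL])
    fun v => ?_, hs0, fun e => ?_⟩
  · rw [LinearMap.sub_apply, e3, cjm_apply, LinearMap.smul_apply, algebraMap_smul, map_smul,
      cjm_apply, LinearEquiv.symm_symm, LinearEquiv.apply_symm_apply,
      LinearEquiv.apply_symm_apply, e3]
    simp only [LinearMap.smul_apply, LinearMap.comp_apply, kt_apply, smul_eq_mul]
    module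
  · have := congrArg (fun f : Dual F V => f (k • x)) e
    simp only [LinearMap.smul_apply, LinearMap.comp_apply, kt_apply, map_smul, hφx, smul_eq_mul,
      mul_one, hk, hηy, LinearMap.zero_apply] at this
    exact hμ1 (mul_left_cancel₀ hμ0 (by linear_combination this))

theorem sl_ext (hH : ∀ g, LinearEquiv.det g = 1 → Semi K g → g ∈ M)
    (hr : (finrank F K).Prime) (hn : 2 ≤ finrank K V) {g : V ≃ₗ[F] V} (hg : g ∈ M)
    (hgH : ¬ Semi K g) : SLle M := by
  obtain ⟨s, f, h, hs, hf⟩ := exists_tv_ext hH hr hn hg hgH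
  exact sl_of_tv (kle_of hH) hr.two_le hn h hs hf

end Cfsg.Agent.Max2
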