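import Mathlib
import Cfsg.Agent.Max2.ExtSL2

/-!
# The normaliser of a field of prime degree is maximal in `SL` and `GL`
-/

set_option autoImplicit false

namespace Cfsg.Agent.Max2

open Module Cfsg.Agent.Max

section Abs

variable {F K V : Type*} [Field F] [Field K] [Algebra F K] [AddCommGroup V] [Module F V]
  [Module K V] [IsScalarTower F K V] [FiniteDimensional F K] [FiniteDimensional K V]

theorem exists_not_semi (hr : 2 ≤ finrank F K) (hn : 2 ≤ finrank K V) :
    ∃ g : V ≃ₗ[F] V, LinearEquiv.det g = 1 ∧ ¬ Semi K g := by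
  have : FiniteDimensional F V := Module.Finite.trans K V
  have : Nontrivial V := Module.nontrivial_of_finrank_pos (R := K) (by omega)
  obtain ⟨v, hv⟩ := exists_ne (0 : V)
  obtain ⟨a, ha⟩ := exists_not_mem_span hn v
  obtain ⟨ω, hω⟩ := exists_not_mem_range (F := F) (K := K) hr
  obtain ⟨f, h1, h2, h3⟩ := exists_dual_three (F := F) (a := v) (b := a) (x := ω • v) fun e => by
    obtain ⟨c, d, h⟩ := Submodule.mem_span_pair.1 e
    have hd : d = 0 := by
      by_contra hd
      refine ha (Submodule.mem_span_singleton.2 ⟨algebraMap F K d⁻¹ * (ω - algebraMap F K c), ?_⟩)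
      rw [mul_smul, sub_smul, ← h, algebraMap_smul, algebraMap_smul, add_sub_cancel_left,
        smul_smul, inv_mul_cancel₀ hd, one_smul]
    rw [hd, zero_smul, add_zero, ← algebraMap_smul K c v] at h
    exact hω c (smul_left_injective K hv h)
  refine ⟨tv a f h2, det_tv _ _ _, fun h => ?_⟩
  obtain ⟨k, hk⟩ := h ω
  have := hk v
  rw [tv_apply, tv_apply, h1, h3, one_smul, zero_smul, add_zero] at this
  exact ha (Submodule.mem_span_singleton.2 ⟨k - ω, by rw [sub_smul, ← this]; simp⟩)

theorem exists_not_semi' (E : IntermediateField F K) (hE : finrank F E < finrank F K)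
    (hn : 2 ≤ finrank K V) : ∃ g : V ≃ₗ[F] V, LinearEquiv.det g = 1 ∧
      (∀ k ∈ E, ∀ v, g (k • v) = k • g v) ∧ ¬ Semi K g := by
  have : FiniteDimensional E V := Module.Finite.trans K V
  have : IsScalarTower F E V := ⟨fun c k v => smul_assoc c (k : K) v⟩
  have h2 : 2 ≤ finrank E K := by
    have h := finrank_mul_finrank F E K
    by_contra hlt
    have h1 : finrank E K = 1 := by have := finrank_pos (R := E) (M := K); omega
    rw [h1] at h; omega
  obtain ⟨g, h1, h3⟩ := exists_not_semi (F := E) (K := K) (V := V) h2 hn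
  refine ⟨g.restrictScalars F, det_restrict g ?_, fun k hk v => g.map_smul ⟨k, hk⟩ v, h3⟩
  rw [← LinearEquiv.coe_det, h1]; simp

theorem exists_semi_det [Finite F] (hn : 1 ≤ finrank K V) (c : Fˣ) :
    ∃ g : V ≃ₗ[F] V, LinearEquiv.det g = c ∧ Semi K g := by
  have : Finite K := Module.finite_of_finite F
  have : Nontrivial V := Module.nontrivial_of_finrank_pos (R := K) (by omega)
  obtain ⟨v, hv⟩ := exists_ne (0 : V)
  obtain ⟨χ, hχ⟩ := exists_dual_one (F := K) hv
  obtain ⟨k, hk⟩ := FiniteField.norm_surjective F K c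
  have e : 1 + χ ((k - 1) • v) = k := by simp [hχ]
  have hu : IsUnit (1 + χ ((k - 1) • v)) := by
    rw [e, isUnit_iff_ne_zero]; rintro rfl; rw [Algebra.norm_zero] at hk; exact c.ne_zero hk.symm
  refine ⟨(LinearEquiv.dilatransvection hu).restrictScalars F, Units.ext ?_, semi_restrict _⟩
  rw [← e, ← LinearMap.transvection.det, ← LinearMap.det_restrictScalars] at hk
  rw [LinearEquiv.coe_det, ← hk]
  rfl

end Abs

open Geo Asch Matrix

variable {F : Type*} [Field F] {ι : Type} [Fintype ι] [DecidableEq ι]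

theorem two_le_finrank {r : ℕ} {K : Subalgebra F (Matrix ι ι F)} [Nonempty ι]
    (hK : IsFieldSubalgebra r K) (hlt : r < Fintype.card ι) : 2 ≤ finrank K (ι → F) := by
  let := (isField_of hK.comm hK.inv).toField
  have := Module.finrank_mul_finrank F K (ι → F)
  rw [hK.finrank_eq, Module.finrank_fintype_fun_eq_card] at this
  by_contra h
  have h2 : finrank K (ι → F) ≤ 1 := by omega
  have := Nat.mul_le_mul_left r h2
  omega

theorem max_ext_SL [Finite F] {r : ℕ} (hr : r.Prime) (hlt : r < Fintype.card ι)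
    {K : Subalgebra F (Matrix ι ι F)} (hK : IsFieldSubalgebra r K) :
    IsMaximalIn (specialLinear ι F) (subalgebraNormalizer K ⊓ specialLinear ι F) := by
  have : Nonempty ι := Fintype.card_pos_iff.1 (by omega)
  have hn := two_le_finrank hK hlt
  let := (isField_of hK.comm hK.inv).toField
  have : FiniteDimensional K (ι → F) := Module.Finite.of_restrictScalars_finite F K _
  have hr' : (finrank F K).Prime := hK.finrank_eq ▸ hr
  exact isMaximalIn_SL' (Semi K) mem_normalizer_iff (exists_not_semi hr'.two_le hn)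
    fun M h1 _ ⟨g, hg, h2⟩ => sl_ext h1 hr' hn hg h2

theorem exists_normalizer_det [Finite F] [Nonempty ι] {r : ℕ}
    {K : Subalgebra F (Matrix ι ι F)} (hK : IsFieldSubalgebra r K) (g : GL ι F) :
    ∃ h ∈ subalgebraNormalizer K, h⁻¹ * g ∈ specialLinear ι F := by
  let := (isField_of hK.comm hK.inv).toField
  have : FiniteDimensional K (ι → F) := Module.Finite.of_restrictScalars_finite F K _
  obtain ⟨h, h1, h2⟩ := exists_semi_det (F := F) (K := K) (V := ι → F) finrank_pos
    (LinearEquiv.det (Orth.glEquiv ι F g))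
  obtain ⟨h, rfl⟩ := (Orth.glEquiv ι F).surjective h
  exact ⟨h, (mem_normalizer_iff h).2 h2, mem_SL.2 (by simp [h1])⟩

theorem coatom_ext [Finite F] {r : ℕ} (hr : r.Prime) (hlt : r < Fintype.card ι)
    {K : Subalgebra F (Matrix ι ι F)} (hK : IsFieldSubalgebra r K) :
    IsCoatom (subalgebraNormalizer K) := by
  have : Nonempty ι := Fintype.card_pos_iff.1 (by omega)
  have h := max_ext_SL hr hlt hK
  refine ⟨fun e => h.1.ne (by rw [e, top_inf_eq]), fun M hM => ?_⟩
  obtain ⟨g, hg, hgN⟩ := SetLike.exists_of_lt hM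
  obtain ⟨k, hk, h1⟩ := exists_normalizer_det hK g
  rcases h.2 (M ⊓ specialLinear ι F) (inf_le_inf_right _ hM.le) inf_le_right with e | e
  · have : k⁻¹ * g ∈ subalgebraNormalizer K :=
      (e.le ⟨M.mul_mem (M.inv_mem (hM.le hk)) hg, h1⟩).1
    exact absurd (by simpa using mul_mem hk this) hgN
  · rw [eq_top_iff]
    intro x _
    obtain ⟨k, hk, h1⟩ := exists_normalizer_det hK x
    simpa using M.mul_mem (hM.le hk) (e.ge h1).1

theorem exists_between_ext [Fintype F] {r : ℕ} (hr1 : 1 < r) (hrp : ¬ r.Prime)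
    (hlt : r < Fintype.card ι) {K : Subalgebra F (Matrix ι ι F)} (hK : IsFieldSubalgebra r K) :
    ∃ N : Subgroup (GL ι F), subalgebraNormalizer K ≤ N ∧
      (∃ x ∈ specialLinear ι F, x ∈ N ∧ x ∉ subalgebraNormalizer K) ∧
      ∃ y ∈ specialLinear ι F, y ∉ N := by
  have : Nonempty ι := Fintype.card_pos_iff.1 (by omega)
  have hn := two_le_finrank hK hlt
  obtain ⟨s, hs, hsr⟩ := Nat.exists_prime_and_dvd hr1.ne'
  have hlt2 : s < r := lt_of_le_of_ne (Nat.le_of_dvd (by omega) hsr) fun e => hrp (e ▸ hs)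
  obtain ⟨K₀, hK₀, hmem⟩ := exists_fieldSub hK.comm hK.inv (r := s) (hK.finrank_eq ▸ hsr)
  refine ⟨subalgebraNormalizer K₀, fun g hg k => ?_, ?_, ?_⟩
  · change _ ↔ cj g k ∈ K₀
    rw [hmem, hmem, ← map_pow, (cj g).injective.eq_iff]
    exact and_congr_left fun _ => hg k
  · let := (isField_of hK.comm hK.inv).toField
    have : FiniteDimensional K (ι → F) := Module.Finite.of_restrictScalars_finite F K _
    obtain ⟨E, hE, hEm⟩ := exists_subfield_abs (F := F) (K := K) (r := s) (hK.finrank_eq ▸ hsr)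
    obtain ⟨g, h1, h2, h3⟩ := exists_not_semi' (V := ι → F) E (by rw [hE, hK.finrank_eq]; exact hlt2) hn
    obtain ⟨g, rfl⟩ := (Orth.glEquiv ι F).surjective g
    refine ⟨g, mem_SL.2 h1, (mem_normalizer_iff g).2 fun k => ⟨k, fun v => ?_⟩,
      fun h => h3 ((mem_normalizer_iff g).1 h)⟩
    obtain ⟨h4, h5⟩ := (hmem k.1).1 k.2
    exact h2 ⟨k.1, h4⟩ ((hEm _).2 (Subtype.ext h5)) v
  · obtain ⟨y, hy, hyN⟩ := SetLike.exists_of_lt (max_ext_SL hs (hlt2.trans hlt) hK₀).1
    exact ⟨y, hy, fun h => hyN ⟨h, hy⟩⟩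

end Cfsg.Agent.Max2
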